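import Cfsg.Agent.Lib.Helper99.AutPSU.Final
import Cfsg.Agent.Lib.Helper47.AutPSUKer

set_option autoImplicit false

/-!
Definitions for the ladder for S2687 (failure of local balance for `PSU_n(q)`).
-/

namespace Cfsg.Agent.Lib.Helper99.BalPSU

open Matrix MatrixGroups Cfsg.Agent.Lib.Helper99.AutPSU

/-- the fixed points of an automorphism -/
abbrev fixS {K : Type*} [Group K] (β : MulAut K) : Subgroup K :=
  MonoidHom.eqLocus β.toMonoidHom (MonoidHom.id K)

theorem mem_fixS {K : Type*} [Group K] {β : MulAut K} {k : K} : k ∈ fixS β ↔ β k = k := Iff.rfl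

/-- no non-trivial `p'`-subgroup of the fixed points is invariant under the centraliser of `β`
in the full automorphism group -/
def HI {K : Type*} [Group K] (p : ℕ) (β : MulAut K) : Prop :=
  ∀ M : Subgroup K, M ≤ fixS β → (Nat.card M).Coprime p →
    (∀ α : MulAut K, α * β = β * α → ∀ k ∈ M, α k ∈ M) → M = ⊥

/-- an automorphism of order prime to `p` fixing all the fixed points of `β` is trivial -/
def HII {K : Type*} [Group K] (p : ℕ) (β : MulAut K) : Prop :=
  ∀ α : MulAut K, (∀ k ∈ fixS β, α k = k) → (orderOf α).Coprime p → α = 1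

variable {F : Type*} [Field F] {n : ℕ}

/-- `β` is induced by the semilinear involution `J` (with respect to `a ↦ a ^ q`), which
multiplies the (conjugated) Hermitian form by `e`. -/
structure Dat2 (q : ℕ) (β : MulAut (Cfsg.PSU n F q)) (e : F)
    (J : (Fin n → F) → (Fin n → F)) : Prop where
  add : ∀ u v, J (u + v) = J u + J v
  smul : ∀ (a : F) v, J (a • v) = a ^ q • J v
  invol : ∀ v, J (J v) = v
  herm : ∀ u v, Cfsg.hermForm n F q (J u) (J v) = e * Cfsg.hermForm n F q v u
  spec : ∀ x y : ↥(Cfsg.SU n F q), β (pm x) = pm y ↔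
    ∃ ζ : F, ∀ v, mt y *ᵥ J v = ζ • J (mt x *ᵥ v)

end Cfsg.Agent.Lib.Helper99.BalPSU
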