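import Cfsg.Agent.Lib.Helper99.BalPSU.Defs
import Cfsg.Agent.Lib.Helper47.AutPSUConj

set_option autoImplicit false
set_option linter.unusedVariables false
set_option linter.unusedSectionVars false

/-!
RUNG N2: the normal form of a non-inner-diagonal involution of `PSU_n(q)`.
-/

namespace Cfsg.Agent.Lib.Helper99.BalPSU

open Matrix MatrixGroups Cfsg.Agent.Lib.Helper99.AutPSU Cfsg.Agent.Lib.Helper17
open Cfsg.Agent.Lib.Helper47.AutPSU

/-- a cyclic group has at most one involution -/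
theorem involution_unique {G : Type*} [Group G] [Finite G] [IsCyclic G] {a b : G}
    (ha : a ^ 2 = 1) (ha1 : a ≠ 1) (hb : b ^ 2 = 1) (hb1 : b ≠ 1) : a = b := by
  classical
  have := Fintype.ofFinite G
  by_contra hab
  have h := IsCyclic.card_pow_eq_one_le (α := G) (n := 2) (by norm_num)
  have hsub : ({1, a, b} : Finset G) ⊆ Finset.univ.filter (fun x : G => x ^ 2 = 1) := by
    intro x hx
    simp only [Finset.mem_insert, Finset.mem_singleton] at hx
    simp only [Finset.mem_filter, Finset.mem_univ, true_and]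
    rcases hx with rfl | rfl | rfl
    · simp
    · exact ha
    · exact hb
  have h3 : ({1, a, b} : Finset G).card = 3 := by
    rw [Finset.card_insert_of_notMem, Finset.card_insert_of_notMem, Finset.card_singleton]
    · simpa using hab
    · simp only [Finset.mem_insert, Finset.mem_singleton, not_or]
      exact ⟨fun h => ha1 h.symm, fun h => hb1 h.symm⟩
  have := Finset.card_le_card hsub
  omega

variable {F : Type*} [Field F] [Fintype F] {n q : ℕ}

theorem sigma_eq_pow (hF : Fintype.card F = q ^ 2) (σ : F ≃+* F) (h2 : σ ^ 2 = 1) (h1 : σ ≠ 1) :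
    ∀ a, σ a = a ^ q := by
  obtain ⟨p, hp⟩ := CharP.exists F
  have : Fact p.Prime := ⟨CharP.char_is_prime F p⟩
  let _ : Algebra (ZMod p) F := ZMod.algebra F p
  obtain ⟨σ', rfl⟩ := Cfsg.Agent.Lib.Helper18.AutPSL.exists_algEquiv p σ
  obtain ⟨φ', hφ⟩ := Cfsg.Agent.Lib.Helper18.AutPSL.exists_algEquiv p (ph hF)
  have e : σ' = φ' := by
    apply involution_unique
    · ext x
      have := congrArg (fun f : F ≃+* F => f x) h2
      exact this
    · rintro rfl
      exact h1 rfl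
    · ext x
      have h3 : φ' x = ph hF x := congrArg (fun f : F ≃+* F => f x) hφ
      have h4 : φ' (φ' x) = ph hF (φ' x) := congrArg (fun f : F ≃+* F => f (φ' x)) hφ
      rw [pow_two]
      show φ' (φ' x) = x
      rw [h4, h3, ph_ph]
    · rintro rfl
      obtain ⟨y, hy⟩ := exists_ph_ne hF
      apply hy
      exact (congrArg (fun f : F ≃+* F => f y) hφ).symm
  intro a
  rw [e, ← ph_apply hF]
  exact congrArg (fun f : F ≃+* F => f a) hφ

theorem Gam_surj (g : ↥(Cfsg.GU n F q)) (σ : F ≃+* F) (u : Fin n → F) :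
    ∃ v, Gam g σ v = u := by
  refine ⟨fun i => σ.symm (((g : GL (Fin n) F)⁻¹.1 *ᵥ u) i), ?_⟩
  simp only [Gam, RingEquiv.apply_symm_apply]
  exact gu_mulVec_inv' g u

theorem mem_center_of_scalar {z : ↥(Cfsg.SU n F q)} {ζ : F} (h : ∀ v, mt z *ᵥ v = ζ • v) :
    z ∈ Subgroup.center ↥(Cfsg.SU n F q) := by
  rw [Subgroup.mem_center_iff]
  intro w
  apply su_ext'
  intro v
  rw [mt_mul_mulVec, mt_mul_mulVec, h, h, mulVec_smul]

theorem pm_eq_of_scalar {x y : ↥(Cfsg.SU n F q)} {ζ : F}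
    (h : ∀ v, mt y *ᵥ v = ζ • (mt x *ᵥ v)) : pm x = pm y := by
  rw [QuotientGroup.eq]
  apply mem_center_of_scalar (ζ := ζ)
  intro v
  rw [mt_mul_mulVec, h, mulVec_smul, mt_inv_mulVec]

theorem spec_of_Gam (hF : Fintype.card F = q ^ 2) (g : ↥(Cfsg.GU n F q)) (σ : F ≃+* F) (μ : F)
    (hμ : μ ≠ 0) (x y : ↥(Cfsg.SU n F q)) :
    (cG g * fl σ : MulAut (Cfsg.PSU n F q)) (pm x) = pm y ↔
      ∃ ζ : F, ∀ v, mt y *ᵥ (μ • Gam g σ v) = ζ • (μ • Gam g σ (mt x *ᵥ v)) := by
  rw [MulAut.mul_apply, fl_pm, cG_pm]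
  constructor
  · intro h
    obtain ⟨ζ, hζ⟩ := exists_scalar_of_pm_eq hF h
    refine ⟨ζ, fun v => ?_⟩
    rw [mulVec_smul, hζ, Gam_conj, smul_comm]
  · rintro ⟨ζ, hζ⟩
    apply pm_eq_of_scalar (ζ := ζ)
    intro u
    obtain ⟨v, rfl⟩ := Gam_surj g σ u
    have h := hζ v
    rw [mulVec_smul, smul_comm ζ μ] at h
    rw [Gam_conj]
    exact smul_right_injective _ hμ h

/-- RUNG N2 -/
theorem exists_dat2 (hF : Fintype.card F = q ^ 2) (hn : 3 ≤ n) (h32 : ¬(n = 3 ∧ q = 2))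
    (h2 : (2 : F) ≠ 0) (β : MulAut (Cfsg.PSU n F q)) (hord : orderOf β = 2)
    (hnot : ¬ Cfsg.IsInnerDiagonalAutPSU β) :
    ∃ (e : F) (J : (Fin n → F) → (Fin n → F)), (e = 1 ∨ e = -1) ∧ Dat2 q β e J := by
  obtain ⟨g, σ, rfl⟩ := autForm hF hn h32 β
  have hσ1 : σ ≠ 1 := by
    rintro rfl
    apply hnot
    rw [isInnerDiagonal_iff]
    exact ⟨g, by rw [map_one, mul_one]⟩
  have hsq : (cG g * fl σ : MulAut (Cfsg.PSU n F q)) ^ 2 = 1 := by
    rw [← hord]; exact pow_orderOf_eq_one _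
  rw [pow_cG_fl] at hsq
  obtain ⟨hσ2, c, hc⟩ := rigid hF hn _ _ hsq
  have hσ := sigma_eq_pow hF σ hσ2 hσ1
  have hσσ : ∀ a, σ (σ a) = a := fun a => congrArg (fun f : F ≃+* F => f a) hσ2
  rw [nrmG_val] at hc
  have hc' : (g : GL (Fin n) F).1 * (g : GL (Fin n) F).1.map σ = c • 1 := by
    rw [← hc]
    simp [Cfsg.Agent.Lib.Helper18.AutPSL.nrm, Cfsg.Agent.Lib.Helper18.AutPSL.mp_eq_map]
  have hPP : ∀ v, Gam g σ (Gam g σ v) = c • v := by
    intro v
    have h1 : (fun i => σ (Gam g σ v i)) = (g : GL (Fin n) F).1.map σ *ᵥ v := by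
      have := map_mulVec σ (g : GL (Fin n) F).1 (fun i => σ (v i))
      simp only [hσσ] at this
      exact this.symm
    rw [Gam, h1, mulVec_mulVec, hc', smul_mulVec, one_mulVec]
  obtain ⟨v0, hv0⟩ : ∃ v : Fin n → F, Cfsg.hermForm n F q v v ≠ 0 := by
    obtain ⟨a, ha1, ha2⟩ := exists_isotropic_ne_zero hF (n := n) (by omega)
    obtain ⟨b, hp⟩ := exists_HP hF (a := a) ⟨ha1, ha2⟩
    obtain ⟨w, -, -, hw⟩ := W_ne hF hn hp
    exact ⟨w, hw⟩
  have hv00 : v0 ≠ 0 := by
    rintro rfl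
    exact hv0 (herm_zero_left _)
  have hcq : c ^ q = c := by
    have h1 : Gam g σ (Gam g σ (Gam g σ v0)) = c • Gam g σ v0 := hPP _
    have h1' : Gam g σ (Gam g σ (Gam g σ v0)) = c ^ q • Gam g σ v0 := by
      rw [hPP v0, Gam_smul, hσ]
    rw [h1'] at h1
    have h3 : (c ^ q - c) • Gam g σ v0 = 0 := by rw [sub_smul, h1, sub_self]
    rcases smul_eq_zero.1 h3 with h | h
    · exact sub_eq_zero.1 h
    · exact absurd h (Gam_ne_zero g σ hv00)
  have hcn : c ^ (q + 1) = 1 := by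
    have h1 : Cfsg.hermForm n F q (Gam g σ (Gam g σ v0)) (Gam g σ (Gam g σ v0)) =
        Cfsg.hermForm n F q v0 v0 := by rw [Gam_herm, Gam_herm, hσσ]
    rw [hPP, hermForm_smul_left, hermForm_smul_right] at h1
    have h3 : (c ^ (q + 1) - 1) * Cfsg.hermForm n F q v0 v0 = 0 := by
      rw [pow_succ]; linear_combination h1
    rcases mul_eq_zero.1 h3 with h | h
    · exact sub_eq_zero.1 h
    · exact absurd h hv0
  have hc2 : c = 1 ∨ c = -1 := by
    rw [pow_succ, hcq] at hcn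
    have : (c - 1) * (c + 1) = 0 := by linear_combination hcn
    rcases mul_eq_zero.1 this with h | h
    · left; exact sub_eq_zero.1 h
    · right; exact eq_neg_of_add_eq_zero_left h
  rcases hc2 with rfl | rfl
  · refine ⟨1, Gam g σ, Or.inl rfl, ?_⟩
    refine ⟨Gam_add g σ, ?_, ?_, ?_, ?_⟩
    · intro a v; rw [Gam_smul, hσ]
    · intro v; rw [hPP, one_smul]
    · intro u v; rw [Gam_herm, hσ, hermForm_conj hF, one_mul]
    · intro x y
      have := spec_of_Gam hF g σ 1 one_ne_zero x y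
      simpa only [one_smul] using this
  · obtain ⟨μ, hμ⟩ := exists_norm_eq hF (-1 : F) (neg_ne_zero.2 one_ne_zero) hcq
    have hμ0 : μ ≠ 0 := by
      rintro rfl
      rw [zero_pow (by omega)] at hμ
      exact one_ne_zero (neg_eq_zero.1 hμ.symm)
    refine ⟨-1, fun v => μ • Gam g σ v, Or.inr rfl, ?_⟩
    refine ⟨?_, ?_, ?_, ?_, ?_⟩
    · intro u v; rw [Gam_add, smul_add]
    · intro a v; rw [Gam_smul, hσ, smul_comm]
    · intro v
      rw [Gam_smul, hPP, hσ, smul_smul, smul_smul]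
      have : μ * μ ^ q * -1 = 1 := by
        rw [pow_succ] at hμ
        linear_combination -hμ
      rw [this, one_smul]
    · intro u v
      rw [hermForm_smul_left, hermForm_smul_right, Gam_herm, hσ, hermForm_conj hF]
      rw [pow_succ] at hμ
      linear_combination (Cfsg.hermForm n F q v u) * hμ
    · intro x y
      exact spec_of_Gam hF g σ μ hμ0 x y

end Cfsg.Agent.Lib.Helper99.BalPSU
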