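import Cfsg.Agent.Lib.Helper99.BalPSU.N2

set_option autoImplicit false
set_option linter.unusedVariables false
set_option linter.unusedSectionVars false

/-!
General lemmas on `Dat2` (both types `e = 1`, `e = -1`).
-/

namespace Cfsg.Agent.Lib.Helper99.BalPSU

open Matrix MatrixGroups Cfsg.Agent.Lib.Helper99.AutPSU Cfsg.Agent.Lib.Helper17
open Cfsg.Agent.Lib.Helper47.AutPSU

variable {F : Type*} [Field F] [Fintype F] {n q : ℕ}
variable {β : MulAut (Cfsg.PSU n F q)} {J : (Fin n → F) → (Fin n → F)} {e : F}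

theorem two_pow_q (hF : Fintype.card F = q ^ 2) : (2 : F) ^ q = 2 := by
  have : (2 : F) = 1 + 1 := by norm_num
  rw [this, add_pow_q hF, one_pow]

theorem half_pow_q (hF : Fintype.card F = q ^ 2) : ((2 : F)⁻¹) ^ q = 2⁻¹ := by
  rw [inv_pow, two_pow_q hF]

namespace Dat2

theorem zero (hD : Dat2 q β e J) : J 0 = 0 := by
  have := hD.add 0 0
  rw [add_zero] at this
  exact left_eq_add.1 this

theorem neg (hD : Dat2 q β e J) (v : Fin n → F) : J (-v) = - J v := by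
  have := hD.add v (-v)
  rw [add_neg_cancel, hD.zero] at this
  exact (neg_eq_of_add_eq_zero_right this.symm).symm

theorem sub (hD : Dat2 q β e J) (u v : Fin n → F) : J (u - v) = J u - J v := by
  rw [sub_eq_add_neg, hD.add, hD.neg, sub_eq_add_neg]

theorem ne_zero (hD : Dat2 q β e J) {v : Fin n → F} (hv : v ≠ 0) : J v ≠ 0 := by
  intro h
  apply hv
  rw [← hD.invol v, h, hD.zero]

theorem mem_fix (hD : Dat2 q β e J) (x : ↥(Cfsg.SU n F q)) :
    pm x ∈ fixS β ↔ ∃ ζ : F, ∀ v, mt x *ᵥ J v = ζ • J (mt x *ᵥ v) := hD.spec x x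

theorem fix_of_comm (hD : Dat2 q β e J) {x : ↥(Cfsg.SU n F q)}
    (h : ∀ v, mt x *ᵥ J v = J (mt x *ᵥ v)) : pm x ∈ fixS β :=
  (hD.mem_fix x).2 ⟨1, fun v => by rw [h, one_smul]⟩

/-- `v = v₁ + v₂` with `v₁` rational and `v₂` anti-rational -/
theorem split (hF : Fintype.card F = q ^ 2) (h2 : (2 : F) ≠ 0) (hD : Dat2 q β e J)
    (v : Fin n → F) : ∃ v₁ v₂, J v₁ = v₁ ∧ J v₂ = -v₂ ∧ v = v₁ + v₂ := by
  refine ⟨(2 : F)⁻¹ • (v + J v), (2 : F)⁻¹ • (v - J v), ?_, ?_, ?_⟩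
  · rw [hD.smul, hD.add, hD.invol, half_pow_q hF, add_comm]
  · rw [hD.smul, hD.sub, hD.invol, half_pow_q hF, ← smul_neg, neg_sub]
  · rw [← smul_add, add_add_sub_cancel, ← two_smul F v, smul_smul, inv_mul_cancel₀ h2, one_smul]

/-- anti-rational vectors become rational after multiplication by `κ`, `κ ^ q = -κ` -/
theorem rat_of_anti (hD : Dat2 q β e J) {κ : F} (hκ : κ ^ q = -κ) {v : Fin n → F}
    (hv : J v = -v) : J (κ • v) = κ • v := by
  rw [hD.smul, hv, hκ, neg_smul, smul_neg, neg_neg]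

/-- a `J`-stable line contains a rational vector -/
theorem exists_rat_line (hF : Fintype.card F = q ^ 2) (hD : Dat2 q β e J) {u : Fin n → F}
    {ζ : F} (h : J u = ζ • u) : ∃ μ : F, μ ≠ 0 ∧ J (μ • u) = μ • u := by
  by_cases h1 : 1 + ζ = 0
  · obtain ⟨κ, hκ0, hκ⟩ := exists_trace_zero hF
    refine ⟨κ, hκ0, hD.rat_of_anti hκ ?_⟩
    rw [h, eq_neg_of_add_eq_zero_right h1, neg_smul, one_smul]
  · refine ⟨1 + ζ, h1, ?_⟩
    have : (1 + ζ) • u = u + J u := by rw [add_smul, one_smul, h]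
    rw [this, hD.add, hD.invol, add_comm]

/-- the image of a rational vector under a fixed element spans a `J`-stable line -/
theorem stable_of_fix (hD : Dat2 q β e J) {x : ↥(Cfsg.SU n F q)} (hx : pm x ∈ fixS β)
    {c : Fin n → F} (hc : J c = c) (hc0 : c ≠ 0) : ∃ ζ : F, J (mt x *ᵥ c) = ζ • (mt x *ᵥ c) := by
  obtain ⟨ζ, hζ⟩ := (hD.mem_fix x).1 hx
  have h := hζ c
  rw [hc] at h
  have hζ0 : ζ ≠ 0 := by
    rintro rfl
    rw [zero_smul] at h
    exact mulVec_ne_zero x hc0 h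
  refine ⟨ζ⁻¹, ?_⟩
  conv_rhs => rw [h]
  rw [smul_smul, inv_mul_cancel₀ hζ0, one_smul]

/-- a unitary matrix commuting with `J` induces an automorphism commuting with `β` -/
theorem comm_cG (hD : Dat2 q β e J) (ρ : ↥(Cfsg.GU n F q))
    (h : ∀ v, (ρ : GL (Fin n) F).1 *ᵥ J v = J ((ρ : GL (Fin n) F).1 *ᵥ v)) :
    cG ρ * β = β * cG ρ := by
  have hinv : ∀ v, (ρ : GL (Fin n) F)⁻¹.1 *ᵥ J v = J ((ρ : GL (Fin n) F)⁻¹.1 *ᵥ v) := by
    intro v
    have := h ((ρ : GL (Fin n) F)⁻¹.1 *ᵥ v)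
    rw [gu_mulVec_inv'] at this
    rw [← this, gu_inv_mulVec']
  ext k
  obtain ⟨x, rfl⟩ := pm_surjective k
  obtain ⟨y, hy⟩ := pm_surjective (β (pm x))
  rw [MulAut.mul_apply, MulAut.mul_apply, ← hy, cG_pm, cG_pm]
  symm
  rw [hD.spec]
  obtain ⟨ζ, hζ⟩ := (hD.spec x y).1 hy.symm
  refine ⟨ζ, fun v => ?_⟩
  rw [conjS_mulVec, conjS_mulVec, hinv, hζ, mulVec_smul, h]

/-- `β² = 1` -/
theorem sq_eq_one (hD : Dat2 q β e J) : β * β = 1 := by
  ext k
  obtain ⟨x, rfl⟩ := pm_surjective k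
  obtain ⟨y, hy⟩ := pm_surjective (β (pm x))
  rw [MulAut.mul_apply, ← hy, MulAut.one_apply, hD.spec]
  obtain ⟨ζ, hζ⟩ := (hD.spec x y).1 hy.symm
  by_cases hζ0 : ζ = 0
  · have all : ∀ u : Fin n → F, u = 0 := by
      intro u
      by_contra hu
      have := hζ u
      rw [hζ0, zero_smul] at this
      exact mulVec_ne_zero y (hD.ne_zero hu) this
    exact ⟨1, fun v => by rw [all (mt x *ᵥ J v), all ((1 : F) • J (mt y *ᵥ v))]⟩
  · refine ⟨(ζ ^ q)⁻¹, fun v => ?_⟩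
    have h := hζ (J v)
    rw [hD.invol] at h
    rw [h, hD.smul, hD.invol, smul_smul, inv_mul_cancel₀ (pow_ne_zero _ hζ0), one_smul]

end Dat2

end Cfsg.Agent.Lib.Helper99.BalPSU
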