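import Cfsg.Agent.Lib.Helper99.BalPSU.Symp2

set_option autoImplicit false
set_option linter.unusedVariables false
set_option linter.unusedSectionVars false
set_option linter.unusedSimpArgs false

/-!
RUNG SYMP, part 3: the theorem.
-/

namespace Cfsg.Agent.Lib.Helper99.BalPSU

open Matrix MatrixGroups Cfsg.Agent.Lib.Helper99.AutPSU Cfsg.Agent.Lib.Helper17
open Cfsg.Agent.Lib.Helper47.AutPSU

variable {F : Type*} [Field F] [Fintype F] {n q : ℕ}
variable {β : MulAut (Cfsg.PSU n F q)} {J : (Fin n → F) → (Fin n → F)} {e : F}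

/-- an automorphism fixing one non-trivial transvection fixes its centre -/
theorem Gam_fix_point (hF : Fintype.card F = q ^ 2) (g : ↥(Cfsg.GU n F q)) (σ : F ≃+* F)
    {b : Fin n → F} (hb : Iso q b) {x : ↥(Cfsg.SU n F q)} (hx : x ∈ X q b) (hx1 : x ≠ 1)
    (h : (cG g * fl σ : MulAut (Cfsg.PSU n F q)) (pm x) = pm x) :
    ∃ c : F, Gam g σ b = c • b := by
  obtain ⟨a, hp⟩ := exists_HP hF hb
  obtain ⟨l, -, hl⟩ := (mem_X_iff hF hp x).1 hx
  have hl0 := l_ne_zero hx1 hl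
  have hpm : pm (conjS g (fldS σ x)) = pm x := by
    simpa [MulAut.mul_apply, fl_pm, cG_pm] using h
  obtain ⟨ζ, hζ⟩ := exists_scalar_of_pm_eq hF hpm
  by_cases hζ1 : ζ = 1
  · have h1 := hζ (Gam g σ a)
    rw [Gam_conj, hl, hl, hp.ba hF, mul_one, Gam_add, Gam_smul, hζ1, one_smul] at h1
    have h2 : σ l • Gam g σ b = (l * Cfsg.hermForm n F q (Gam g σ a) b) • b :=
      (add_left_cancel h1).symm
    have hσl : σ l ≠ 0 := by simpa using hl0
    refine ⟨(σ l)⁻¹ * (l * Cfsg.hermForm n F q (Gam g σ a) b), ?_⟩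
    rw [mul_smul, ← h2, smul_smul, inv_mul_cancel₀ hσl, one_smul]
  · have h1 := hζ (Gam g σ b)
    rw [Gam_conj, hl, hl b, hb.2, mul_zero, zero_smul, add_zero] at h1
    have h2 : (ζ - 1) • Gam g σ b = (l * Cfsg.hermForm n F q (Gam g σ b) b) • b := by
      rw [sub_smul, one_smul, ← h1]; abel
    refine ⟨(ζ - 1)⁻¹ * (l * Cfsg.hermForm n F q (Gam g σ b) b), ?_⟩
    rw [mul_smul, ← h2, smul_smul, inv_mul_cancel₀ (sub_ne_zero.2 hζ1), one_smul]

theorem Gam_zero (g : ↥(Cfsg.GU n F q)) (σ : F ≃+* F) : Gam g σ 0 = 0 := by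
  have := Gam_add g σ 0 0
  rw [add_zero] at this
  exact left_eq_add.1 this

theorem Gam_toGU (x : ↥(Cfsg.SU n F q)) (v : Fin n → F) : Gam (toGU x) 1 v = mt x *ᵥ v := by
  rw [Gam, toGU_val]
  rfl

theorem not_pow_q_id (hF : Fintype.card F = q ^ 2) (h2 : (2 : F) ≠ 0) :
    ¬ ∀ a : F, (1 : F ≃+* F) a = a ^ q := by
  intro h
  obtain ⟨κ, hκ0, hκ⟩ := exists_trace_zero hF
  have h1 : κ = κ ^ q := h κ
  rw [hκ] at h1
  have : (2 : F) * κ = 0 := by linear_combination h1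
  rcases mul_eq_zero.1 this with h | h
  · exact h2 h
  · exact hκ0 h

/-- from the two-case conclusion of rigidity for `x ∈ SU` -/
theorem pm_eq_one_of_rigid (hF : Fintype.card F = q ^ 2) (h2 : (2 : F) ≠ 0)
    {x : ↥(Cfsg.SU n F q)}
    (h : ((1 : F ≃+* F) = 1 ∧ ∃ μ : F, ∀ v, Gam (toGU x) 1 v = μ • v) ∨
      ((∀ a, (1 : F ≃+* F) a = a ^ q) ∧ ∃ μ : F, ∀ v, Gam (toGU x) 1 v = μ • J v)) :
    pm x = 1 := by
  rcases h with ⟨-, μ, hμ⟩ | ⟨h, -⟩
  · rw [← pm_one]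
    symm
    apply pm_eq_of_scalar (ζ := μ)
    intro v
    rw [mt_one, one_mulVec, ← Gam_toGU, hμ]
  · exact absurd h (not_pow_q_id hF h2)

/-- from the two-case conclusion of rigidity for an automorphism of odd order -/
theorem aut_eq_one_of_rigid (hF : Fintype.card F = q ^ 2) (hn : 3 ≤ n) (hD : Dat2 q β e J)
    {h : ↥(Cfsg.GU n F q)} {τ : F ≃+* F}
    (hodd : (orderOf (cG h * fl τ : MulAut (Cfsg.PSU n F q))).Coprime 2)
    (hr : (τ = 1 ∧ ∃ μ : F, ∀ v, Gam h τ v = μ • v) ∨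
      ((∀ a, τ a = a ^ q) ∧ ∃ μ : F, ∀ v, Gam h τ v = μ • J v)) :
    (cG h * fl τ : MulAut (Cfsg.PSU n F q)) = 1 := by
  rcases hr with ⟨rfl, μ, hμ⟩ | ⟨-, μ, hμ⟩
  · rw [map_one, mul_one]
    apply cG_eq_one_of_smul (c := μ)
    rw [Matrix.ext_iff_mulVec]
    intro v
    rw [smul_mulVec, one_mulVec, ← hμ v]
    rfl
  · obtain ⟨u0, hu0⟩ : ∃ u : Fin n → F, u ≠ 0 := by
      obtain ⟨a, ha1, -⟩ := exists_isotropic_ne_zero hF (n := n) (by omega)
      exact ⟨a, ha1⟩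
    have hμ0 : μ ≠ 0 := by
      rintro rfl
      have := hμ u0
      rw [zero_smul] at this
      exact Gam_ne_zero h τ hu0 this
    have hαβ : (cG h * fl τ : MulAut (Cfsg.PSU n F q)) = β := by
      ext k
      obtain ⟨x, rfl⟩ := pm_surjective k
      rw [MulAut.mul_apply, fl_pm, cG_pm]
      symm
      rw [hD.spec]
      refine ⟨1, fun v => ?_⟩
      have := Gam_conj h τ x v
      rw [hμ, hμ, mulVec_smul] at this
      rw [one_smul]
      exact smul_right_injective _ hμ0 this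
    have hsq : (cG h * fl τ : MulAut (Cfsg.PSU n F q)) ^ 2 = 1 := by
      rw [hαβ, pow_two, hD.sq_eq_one]
    have h1 := orderOf_dvd_of_pow_eq_one hsq
    have h3 : orderOf (cG h * fl τ : MulAut (Cfsg.PSU n F q)) = 1 :=
      Nat.Coprime.eq_one_of_dvd hodd h1
    exact orderOf_eq_one_iff.1 h3

theorem s_even (hF : Fintype.card F = q ^ 2) (hn : 3 ≤ n) (h2 : (2 : F) ≠ 0)
    (hD : Dat2 q β (-1) J) : 2 ∣ Nat.card ↥(fixS β) := by
  obtain ⟨u0, hu0⟩ : ∃ u : Fin n → F, u ≠ 0 := by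
    obtain ⟨a, ha1, -⟩ := exists_isotropic_ne_zero hF (n := n) (by omega)
    exact ⟨a, ha1⟩
  obtain ⟨c, hc, hc1⟩ := hD.exists_rat_pair hF h2 hu0
  have hc0 : c ≠ 0 := by
    rintro rfl
    exact hc1 (herm_zero_right hF _)
  obtain ⟨d, hd, hs⟩ := hD.exists_rat_pair hF h2 hc0
  have hd0 : d ≠ 0 := by
    rintro rfl
    exact hs (herm_zero_right hF _)
  set s := Cfsg.hermForm n F q c d with hsdef
  set a : F := (s⁻¹) ^ q with ha
  have ha0 : a ≠ 0 := pow_ne_zero _ (inv_ne_zero hs)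
  have hpr : HP q c (a • d) := by
    refine ⟨s_iso h2 hD hc, ?_, ?_⟩
    · rw [hermForm_smul_left, hermForm_smul_right, s_iso h2 hD hd, mul_zero, mul_zero]
    · rw [hermForm_smul_right, ha, pow_q_pow_q hF, ← hsdef, inv_mul_cancel₀ hs]
  obtain ⟨l, hl0, hlq⟩ := exists_trace_zero hF
  have hl : l + l ^ q = 0 := by rw [hlq]; ring
  have hA : pm (tv hF hpr.a0 l) ∈ fixS β := s_X_fix hF h2 hD hc hc0 (tv_mem hF hpr.a0 l)
  have hB : pm (tv hF hpr.b0 (-l⁻¹)) ∈ fixS β := by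
    apply s_X_fix hF h2 hD hd hd0
    have := tv_mem hF hpr.b0 (-l⁻¹)
    rwa [AutPSU.X_smul ha0] at this
  have hw : pm (weyl hF hpr l) ∈ fixS β := by
    have : pm (weyl hF hpr l) = pm (tv hF hpr.a0 l) * pm (tv hF hpr.b0 (-l⁻¹)) *
      pm (tv hF hpr.a0 l) := rfl
    rw [this]
    exact (fixS β).mul_mem ((fixS β).mul_mem hA hB) hA
  have h4 : pm (weyl hF hpr l) ^ 4 = 1 := by
    have := weyl_pow_four hF hpr hl hl0
    rw [← pm_one, ← this]
    rfl
  have hne := pm_weyl_sq_ne_one hF hpr hl hl0 hn h2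
  let g : ↥(fixS β) := ⟨pm (weyl hF hpr l) ^ 2, (fixS β).pow_mem hw 2⟩
  have hg : orderOf g = 2 := by
    apply orderOf_eq_prime
    · apply Subtype.ext
      show (pm (weyl hF hpr l) ^ 2) ^ 2 = 1
      rw [← pow_mul]; exact h4
    · intro h
      exact hne (congrArg Subtype.val h)
  rw [← hg]
  exact orderOf_dvd_natCard g

/-- RUNG SYMP -/
theorem symp (hF : Fintype.card F = q ^ 2) (hn : 3 ≤ n) (h32 : ¬(n = 3 ∧ q = 2))
    (h2 : (2 : F) ≠ 0) (hD : Dat2 q β (-1) J) :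
    2 ∣ Nat.card ↥(fixS β) ∧ HI 2 β ∧ HII 2 β := by
  refine ⟨s_even hF hn h2 hD, ?_, ?_⟩
  · intro M hle hodd hinv
    have hM : IsM β M := ⟨hle, hodd, hinv⟩
    rw [eq_bot_iff]
    intro k hk
    obtain ⟨x, rfl⟩ := pm_surjective k
    rw [Subgroup.mem_bot]
    apply pm_eq_one_of_rigid (J := J) hF h2
    apply s_rigid hF hn h2 hD
    intro c hc
    by_cases hc0 : c = 0
    · exact ⟨0, by rw [hc0, Gam_zero, smul_zero]⟩
    · rw [Gam_toGU]
      exact s_step2 hF hn h2 hD hM hk hc hc0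
  · intro α hα hodd
    obtain ⟨h, τ, rfl⟩ := autForm hF hn h32 α
    apply aut_eq_one_of_rigid hF hn hD hodd
    apply s_rigid hF hn h2 hD
    intro c hc
    by_cases hc0 : c = 0
    · exact ⟨0, by rw [hc0, Gam_zero, smul_zero]⟩
    · have hiso : Iso q c := ⟨hc0, s_iso h2 hD hc⟩
      obtain ⟨t, ht, ht1⟩ := exists_X_ne_one hF hiso
      exact Gam_fix_point hF h τ hiso ht ht1 (hα _ (s_X_fix hF h2 hD hc hc0 ht))

end Cfsg.Agent.Lib.Helper99.BalPSU
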