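import Cfsg.Agent.Lib.Helper62.BalPSUOHI
import Cfsg.Agent.Lib.Helper62.BalPSUOHII
import Cfsg.Agent.Lib.Helper99.BalPSU.Symp3
import Cfsg.Agent.Lib.Helper62.BalPSUA
import Cfsg.Agent.Lib.Helper47.BalPSUODDN
import Cfsg.Agent.Lib.Helper47.BalPSUODD
import Cfsg.Agent.S0282

set_option autoImplicit false
set_option linter.unusedVariables false

/-!
Assembly of the ladder for S2687.
-/

namespace Cfsg.Agent.Lib.Helper99.BalPSU

open Matrix MatrixGroups Cfsg.Agent.Lib.Helper99.AutPSU Cfsg.Agent.Lib.Helper17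
open Cfsg.Agent.Lib.Helper62.BalPSU (core_ne_bot core_eq_bot HI_conj HII_conj card_fixS_conj orth_HI
  orth_HII)
open Cfsg.Agent.Lib.Helper47.BalPSU (odd_normal odd_case)

variable {F : Type*} [Field F] [Fintype F] {n q : ℕ}

theorem not_comm (hF : Fintype.card F = q ^ 2) (hn : 3 ≤ n) :
    ¬ ∀ a b : Cfsg.PSU n F q, a * b = b * a := by
  intro h
  obtain ⟨a, ha1, ha2⟩ := exists_isotropic_ne_zero hF (n := n) (by omega)
  obtain ⟨b, hp⟩ := exists_HP hF (a := a) ⟨ha1, ha2⟩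
  obtain ⟨x, hx, hx1⟩ := exists_X_ne_one hF hp.isoA
  obtain ⟨y, hy, hy1⟩ := exists_X_ne_one hF (hp.isoB hF)
  have := perp_of_comm hF hp.isoA (hp.isoB hF) hx hx1 hy hy1 (by rw [pm_mul, pm_mul, h])
  rw [hp.ab] at this
  exact one_ne_zero this

theorem center_eq_bot (hF : Fintype.card F = q ^ 2) (hn : 3 ≤ n)
    (hK : IsSimpleGroup (Cfsg.PSU n F q)) : Subgroup.center (Cfsg.PSU n F q) = ⊥ := by
  rcases hK.eq_bot_or_eq_top_of_normal _ (inferInstance : (Subgroup.center _).Normal) with h | h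
  · exact h
  · exfalso
    apply not_comm hF hn
    intro a b
    have : b ∈ Subgroup.center (Cfsg.PSU n F q) := by rw [h]; trivial
    exact (Subgroup.mem_center_iff.1 this a)

theorem not_32 (hF : Fintype.card F = q ^ 2) (hn : 3 ≤ n)
    (hK : IsSimpleGroup (Cfsg.PSU n F q)) : ¬(n = 3 ∧ q = 2) := by
  rintro ⟨rfl, rfl⟩
  have h := (Cfsg.Agent.S0282.result (F := F) (by rw [hF]; norm_num)).2
  exact not_comm hF hn (IsSimpleGroup.comm_iff_isSolvable.2 h)

theorem main (r : ℕ) [Fact r.Prime] [CharP F r] (hF : Fintype.card F = q ^ 2)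
    (hn : 3 ≤ n) (hK : IsSimpleGroup (Cfsg.PSU n F q))
    (𝒢 : Subgroup (MulAut (Cfsg.PSU n F q))) (hinn : ∀ k : Cfsg.PSU n F q, MulAut.conj k ∈ 𝒢)
    (p : ℕ) [Fact p.Prime] (hpr : p ≠ r) (β : MulAut (Cfsg.PSU n F q))
    (hord : orderOf β = p) (hnot : ¬ Cfsg.IsInnerDiagonalAutPSU β) :
    Cfsg.pPrimeCore p ↥(𝒢 ⊓ Subgroup.centralizer {β}) ≠ ⊥ ↔
      Nat.Coprime p (Nat.card ↥(fixS β)) := by
  have h32 := not_32 hF hn hK
  have hZ := center_eq_bot hF hn hK
  have hpp : p.Prime := Fact.out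
  by_cases hp2 : p = 2
  · subst hp2
    have h2 : (2 : F) ≠ 0 := by
      intro h
      have h' : ((2 : ℕ) : F) = 0 := by exact_mod_cast h
      rw [CharP.cast_eq_zero_iff F r] at h'
      exact hpr ((Nat.prime_dvd_prime_iff_eq Fact.out Nat.prime_two).1 h').symm
    obtain ⟨e, J, he, hD⟩ := exists_dat2 hF hn h32 h2 β hord hnot
    have key : 2 ∣ Nat.card ↥(fixS β) ∧ HI 2 β ∧ HII 2 β := by
      rcases he with rfl | rfl
      · exact ⟨(orth_HI hF hn h2 hD).1, (orth_HI hF hn h2 hD).2, orth_HII hF hn h32 h2 hD⟩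
      · exact symp hF hn h32 h2 hD
    constructor
    · intro h
      exact absurd (core_eq_bot hZ 𝒢 hinn 2 β key.2.1 key.2.2) h
    · intro h
      exfalso
      exact (Nat.Prime.coprime_iff_not_dvd Nat.prime_two).1 h key.1
  · obtain ⟨h, σ, hσ, rfl⟩ := odd_normal hF hn h32 hp2 β hord hnot
    obtain ⟨h1, h2, h3⟩ := odd_case (r := r) hF hn h32 hpr hp2 σ hσ
    rw [card_fixS_conj]
    constructor
    · intro hne
      by_contra hc
      have hd : p ∣ Nat.card ↥(fixS (fl σ : MulAut (Cfsg.PSU n F q))) := by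
        by_contra hnd
        exact hc ((Nat.Prime.coprime_iff_not_dvd hpp).2 hnd)
      exact hne (core_eq_bot hZ 𝒢 hinn p _ (HI_conj p h _ (h2 hd)) (HII_conj p h _ h3))
    · intro hc
      apply core_ne_bot hZ 𝒢 hinn p
      · intro hb
        apply h1
        have e1 := card_fixS_conj h (fl σ : MulAut (Cfsg.PSU n F q))
        rw [hb, Subgroup.card_bot] at e1
        exact Subgroup.card_eq_one.1 e1.symm
      · rw [card_fixS_conj]
        exact hc

end Cfsg.Agent.Lib.Helper99.BalPSU
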