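import Cfsg.Agent.Lib.Helper99.BalPSU.Weyl

set_option autoImplicit false
set_option linter.unusedVariables false
set_option linter.unusedSectionVars false
set_option linter.unusedSimpArgs false

/-!
RUNG SYMP, part 1: basic facts, Step 1 and Step 2.
-/

namespace Cfsg.Agent.Lib.Helper99.BalPSU

open Matrix MatrixGroups Cfsg.Agent.Lib.Helper99.AutPSU Cfsg.Agent.Lib.Helper17
open Cfsg.Agent.Lib.Helper47.AutPSU

variable {F : Type*} [Field F] [Fintype F] {n q : ℕ}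
variable {β : MulAut (Cfsg.PSU n F q)} {J : (Fin n → F) → (Fin n → F)} {e : F}

instance instFinPSU : Finite (Cfsg.PSU n F q) := by
  unfold Cfsg.PSU
  infer_instance

/-- every non-zero vector pairs non-trivially with a rational vector -/
theorem Dat2.exists_rat_pair (hF : Fintype.card F = q ^ 2) (h2 : (2 : F) ≠ 0) (hD : Dat2 q β e J)
    {u : Fin n → F} (hu : u ≠ 0) : ∃ d, J d = d ∧ Cfsg.hermForm n F q u d ≠ 0 := by
  have : ∃ v, Cfsg.hermForm n F q u v ≠ 0 := by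
    by_contra h
    push Not at h
    exact hu (hermForm_left_eq_zero hF n u h)
  obtain ⟨v, hv⟩ := this
  obtain ⟨v₁, v₂, h1, h2', rfl⟩ := hD.split hF h2 v
  rw [hermForm_add_right hF] at hv
  by_cases h : Cfsg.hermForm n F q u v₁ = 0
  · rw [h, zero_add] at hv
    obtain ⟨κ, hκ0, hκ⟩ := exists_trace_zero hF
    refine ⟨κ • v₂, hD.rat_of_anti hκ h2', ?_⟩
    rw [hermForm_smul_right]
    exact mul_ne_zero (pow_ne_zero _ hκ0) hv
  · exact ⟨v₁, h1, h⟩

/-- conjugation by a fixed point commutes with `β` -/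
theorem conj_comm {K : Type*} [Group K] {β : MulAut K} {k : K} (hk : k ∈ fixS β) :
    MulAut.conj k * β = β * MulAut.conj k := by
  have hk' : β k = k := hk
  ext z
  simp only [MulAut.mul_apply, MulAut.conj_apply, map_mul, map_inv, hk']

theorem s_iso (h2 : (2 : F) ≠ 0) (hD : Dat2 q β (-1) J) {c : Fin n → F} (hc : J c = c) :
    Cfsg.hermForm n F q c c = 0 := by
  have h := hD.herm c c
  rw [hc] at h
  have : (2 : F) * Cfsg.hermForm n F q c c = 0 := by linear_combination h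
  rcases mul_eq_zero.1 this with h | h
  · exact absurd h h2
  · exact h

theorem s_X_comm (hF : Fintype.card F = q ^ 2) (h2 : (2 : F) ≠ 0) (hD : Dat2 q β (-1) J)
    {c : Fin n → F} (hc : J c = c) (hc0 : c ≠ 0) {x : ↥(Cfsg.SU n F q)} (hx : x ∈ X q c)
    (v : Fin n → F) : mt x *ᵥ J v = J (mt x *ᵥ v) := by
  obtain ⟨l, hl, hf⟩ := (mem_X_iff' hF ⟨hc0, s_iso h2 hD hc⟩ x).1 hx
  have h1 : Cfsg.hermForm n F q (J v) c = - Cfsg.hermForm n F q c v := by
    have := hD.herm v c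
    rw [hc] at this
    rw [this]; ring
  have hlq : l ^ q = -l := by linear_combination hl
  rw [hf, hf, hD.add, hD.smul, hc, h1, mul_pow, hermForm_conj hF, hlq]
  congr 2
  ring

theorem s_X_fix (hF : Fintype.card F = q ^ 2) (h2 : (2 : F) ≠ 0) (hD : Dat2 q β (-1) J)
    {c : Fin n → F} (hc : J c = c) (hc0 : c ≠ 0) {x : ↥(Cfsg.SU n F q)} (hx : x ∈ X q c) :
    pm x ∈ fixS β := hD.fix_of_comm (s_X_comm hF h2 hD hc hc0 hx)

/-- the hypotheses on `M` in `HI` -/
structure IsM (β : MulAut (Cfsg.PSU n F q)) (M : Subgroup (Cfsg.PSU n F q)) : Prop where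
  le : M ≤ fixS β
  odd : (Nat.card M).Coprime 2
  inv : ∀ α : MulAut (Cfsg.PSU n F q), α * β = β * α → ∀ k ∈ M, α k ∈ M

theorem IsM.conj {M : Subgroup (Cfsg.PSU n F q)} (hM : IsM β M) {k : Cfsg.PSU n F q}
    (hk : k ∈ fixS β) : ∀ m ∈ M, k * m * k⁻¹ ∈ M := fun m hm =>
  hM.inv _ (conj_comm hk) m hm

theorem s_step1 (hF : Fintype.card F = q ^ 2) (hn : 3 ≤ n) (h2 : (2 : F) ≠ 0)
    (hD : Dat2 q β (-1) J) {M : Subgroup (Cfsg.PSU n F q)} (hM : IsM β M)
    {x : ↥(Cfsg.SU n F q)} (hx : pm x ∈ M) {c : Fin n → F} (hc : J c = c) (hc0 : c ≠ 0) :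
    Cfsg.hermForm n F q (mt x *ᵥ c) c = 0 := by
  by_contra hne
  obtain ⟨p, hp⟩ := CharP.exists F
  have hpp : p.Prime := CharP.char_is_prime F p
  have hp2 : p ≠ 2 := by
    rintro rfl
    apply h2
    have := CharP.cast_eq_zero F 2
    exact_mod_cast this
  have hs : Cfsg.hermForm n F q c (mt x *ᵥ c) ≠ 0 := fun h => hne (herm_zero_comm hF h)
  set s := Cfsg.hermForm n F q c (mt x *ᵥ c) with hsdef
  set a : F := (s⁻¹) ^ q with ha
  have ha0 : a ≠ 0 := pow_ne_zero _ (inv_ne_zero hs)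
  have hc00 := s_iso h2 hD hc
  have hpr : HP q c (a • (mt x *ᵥ c)) := by
    refine ⟨hc00, ?_, ?_⟩
    · rw [hermForm_smul_left, hermForm_smul_right, mt_herm, hc00, mul_zero, mul_zero]
    · rw [hermForm_smul_right, ha, pow_q_pow_q hF, ← hsdef, inv_mul_cancel₀ hs]
  obtain ⟨l, hl0, hlq⟩ := exists_trace_zero hF
  have hl : l + l ^ q = 0 := by rw [hlq]; ring
  set A := tv hF hpr.a0 l with hA
  set B := tv hF hpr.b0 (-l⁻¹) with hB
  have hAX : A ∈ X q c := tv_mem hF hpr.a0 l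
  have hBX : B ∈ X q (a • (mt x *ᵥ c)) := tv_mem hF hpr.b0 _
  set t := x⁻¹ * B * x with ht
  have htX : t ∈ X q c := by
    have := Cfsg.Agent.Lib.Helper50.AutPSUGeom.conj_mem_X x⁻¹ hBX
    rw [inv_inv, mulVec_smul, mt_inv_mulVec, AutPSU.X_smul ha0] at this
    exact this
  have hfA := s_X_fix hF h2 hD hc hc0 hAX
  have hft := s_X_fix hF h2 hD hc hc0 htX
  have hu : A * t * A ∈ X q c := (X q c).mul_mem ((X q c).mul_mem hAX htX) hAX
  have hfu := s_X_fix hF h2 hD hc hc0 hu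
  have hup : pm (A * t * A) ^ p = 1 := by
    have := Cfsg.Agent.Lib.Helper62.PD.X_pow_p (p := p) hc00 hu
    rw [← pm_one, ← this]
    rfl
  have hm' : (pm A * pm x * (pm A)⁻¹) * (pm (A * t) * (pm x)⁻¹ * (pm (A * t))⁻¹) ∈ M := by
    apply M.mul_mem
    · exact hM.conj hfA _ hx
    · exact hM.conj ((fixS β).mul_mem hfA hft) _ (M.inv_mem hx)
  have hw : pm (weyl hF hpr l) =
      (pm A * pm x * (pm A)⁻¹) * (pm (A * t) * (pm x)⁻¹ * (pm (A * t))⁻¹) * pm (A * t * A) := by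
    have hxt : x * t * x⁻¹ = B := by rw [ht]; group
    have : weyl hF hpr l = A * (x * t * x⁻¹) * A := by
      rw [hxt]; rfl
    rw [this]
    simp only [pm_mul, pm_inv]
    group
  have h1 := pow_eq_one_of_mul M _ (pm (A * t * A)) hm' (hM.conj hfu) p hup
  rw [← hw] at h1
  have h4 : pm (weyl hF hpr l) ^ 4 = 1 := by
    have := weyl_pow_four hF hpr hl hl0
    rw [← pm_one, ← this]
    rfl
  have hg := pow_gcd_eq_one.2 ⟨h4, h1⟩
  have hcop : Nat.gcd 4 (p * Nat.card M) = 1 := by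
    have h5 : Nat.Coprime 2 (p * Nat.card M) :=
      Nat.Coprime.mul_right ((Nat.coprime_primes Nat.prime_two hpp).2 (Ne.symm hp2)) hM.odd.symm
    exact Nat.Coprime.pow_left 2 h5
  rw [hcop, pow_one] at hg
  exact pm_weyl_sq_ne_one hF hpr hl hl0 hn h2 (by rw [hg, one_pow])

end Cfsg.Agent.Lib.Helper99.BalPSU
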