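import Cfsg.Agent.Lib.Helper99.BalPSU.Dat

set_option autoImplicit false
set_option linter.unusedVariables false
set_option linter.unusedSectionVars false
set_option linter.unusedSimpArgs false

/-!
The Weyl element `t_a(l) t_b(-1/l) t_a(l)` of a hyperbolic pair, and an abstract parity lemma.
-/

namespace Cfsg.Agent.Lib.Helper99.BalPSU

open Matrix MatrixGroups Cfsg.Agent.Lib.Helper99.AutPSU Cfsg.Agent.Lib.Helper17

/-! ### an abstract lemma -/

section abs
variable {G : Type*} [Group G]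

theorem conj_pow_mem (M : Subgroup G) (u : G) (hu : ∀ x ∈ M, u * x * u⁻¹ ∈ M) (j : ℕ) :
    ∀ x ∈ M, u ^ j * x * (u ^ j)⁻¹ ∈ M := by
  induction j with
  | zero => intro x hx; simpa using hx
  | succ j ih =>
    intro x hx
    have := hu _ (ih x hx)
    have e : u ^ (j + 1) * x * (u ^ (j + 1))⁻¹ = u * (u ^ j * x * (u ^ j)⁻¹) * u⁻¹ := by
      rw [pow_succ']; group
    rw [e]; exact this

theorem mul_pow_mem (M : Subgroup G) (m u : G) (hm : m ∈ M) (hu : ∀ x ∈ M, u * x * u⁻¹ ∈ M)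
    (j : ℕ) : ∃ m' ∈ M, (m * u) ^ j = m' * u ^ j := by
  induction j with
  | zero => exact ⟨1, M.one_mem, by simp⟩
  | succ j ih =>
    obtain ⟨m', hm', e⟩ := ih
    refine ⟨m' * (u ^ j * m * (u ^ j)⁻¹), M.mul_mem hm' (conj_pow_mem M u hu j m hm), ?_⟩
    rw [pow_succ, e, pow_succ]; group

/-- an element `m u` with `m` in a subgroup `M` of odd order normalised by `u`, `u` of odd order,
has odd order -/
theorem pow_eq_one_of_mul (M : Subgroup G) [Finite M] (m u : G) (hm : m ∈ M)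
    (hu : ∀ x ∈ M, u * x * u⁻¹ ∈ M) (k : ℕ) (hk : u ^ k = 1) :
    (m * u) ^ (k * Nat.card M) = 1 := by
  obtain ⟨m', hm', e⟩ := mul_pow_mem M m u hm hu k
  rw [pow_mul, e, hk, mul_one]
  have := pow_card_eq_one' (G := M) (x := ⟨m', hm'⟩)
  exact congrArg Subtype.val this

end abs

variable {F : Type*} [Field F] [Fintype F] {n q : ℕ}

theorem neg_inv_trace (hF : Fintype.card F = q ^ 2) {l : F} (hl : l + l ^ q = 0) :
    (-l⁻¹) + (-l⁻¹) ^ q = 0 := by
  have h : l ^ q = -l := by linear_combination hl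
  rw [neg_pow_q hF, inv_pow, h, inv_neg]
  ring

/-- the Weyl element -/
noncomputable def weyl (hF : Fintype.card F = q ^ 2) {a b : Fin n → F} (hp : HP q a b) (l : F) :
    ↥(Cfsg.SU n F q) :=
  tv hF hp.a0 l * tv hF hp.b0 (-l⁻¹) * tv hF hp.a0 l

section
variable (hF : Fintype.card F = q ^ 2) {a b : Fin n → F} (hp : HP q a b) {l : F}
  (hl : l + l ^ q = 0) (hl0 : l ≠ 0)
include hl hl0

theorem weyl_a : mt (weyl hF hp l) *ᵥ a = (-l⁻¹) • b := by
  have hll : l * (-l⁻¹) = -1 := by field_simp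
  simp only [weyl, mt_mul_mulVec, tv_mulVec hF hp.a0 hl, tv_mulVec hF hp.b0 (neg_inv_trace hF hl),
    hermForm_add_left, hermForm_smul_left, hp.a0, hp.ba hF, hp.ab, hp.b0]
  linear_combination (norm := module) hll • a

theorem weyl_b : mt (weyl hF hp l) *ᵥ b = l • a := by
  have hll : l * (-l⁻¹) = -1 := by field_simp
  simp only [weyl, mt_mul_mulVec, tv_mulVec hF hp.a0 hl, tv_mulVec hF hp.b0 (neg_inv_trace hF hl),
    hermForm_add_left, hermForm_smul_left, hp.a0, hp.ba hF, hp.ab, hp.b0]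
  linear_combination (norm := module) hll • b + (l * hll) • a

theorem weyl_w {w : Fin n → F} (hwa : Cfsg.hermForm n F q w a = 0)
    (hwb : Cfsg.hermForm n F q w b = 0) : mt (weyl hF hp l) *ᵥ w = w := by
  simp only [weyl, mt_mul_mulVec, tv_mulVec hF hp.a0 hl, tv_mulVec hF hp.b0 (neg_inv_trace hF hl),
    hermForm_add_left, hermForm_smul_left, hwa, hwb, mul_zero, zero_smul, add_zero]

theorem weyl_sq (v : Fin n → F) : mt (weyl hF hp l * weyl hF hp l) *ᵥ v =
    pw q a b v - (Cfsg.hermForm n F q v b • a + Cfsg.hermForm n F q v a • b) := by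
  have hll : l * (-l⁻¹) = -1 := by field_simp
  conv_lhs => rw [decomp (q := q) a b v]
  rw [mt_mul_mulVec]
  simp only [mulVec_add, mulVec_smul, weyl_a hF hp hl hl0, weyl_b hF hp hl hl0,
    weyl_w hF hp hl hl0 (pw_a hF hp v) (pw_b hF hp v)]
  linear_combination (norm := module) (Cfsg.hermForm n F q v b * hll) • a +
    (Cfsg.hermForm n F q v a * hll) • b

theorem weyl_pow_four : weyl hF hp l ^ 4 = 1 := by
  apply su_ext'
  intro v
  have e : weyl hF hp l ^ 4 = (weyl hF hp l * weyl hF hp l) * (weyl hF hp l * weyl hF hp l) := by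
    rw [← pow_two, ← pow_two, ← pow_mul]
  rw [e, mt_mul_mulVec, weyl_sq hF hp hl hl0 v, weyl_sq hF hp hl hl0, mt_one, one_mulVec]
  simp only [pw, hermForm_sub_left, hermForm_add_left, hermForm_smul_left, hp.a0, hp.b0, hp.ab,
    hp.ba hF]
  module

theorem pm_weyl_sq_ne_one (hn : 3 ≤ n) (h2 : (2 : F) ≠ 0) : pm (weyl hF hp l) ^ 2 ≠ 1 := by
  intro h
  have h' : pm (1 : ↥(Cfsg.SU n F q)) = pm (weyl hF hp l * weyl hF hp l) := by
    rw [pm_mul, ← pow_two, h, pm_one]
  obtain ⟨ζ, hζ⟩ := exists_scalar_of_pm_eq hF h'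
  obtain ⟨w, hwa, hwb, hww⟩ := W_ne hF hn hp
  have hw0 : w ≠ 0 := by
    rintro rfl
    exact hww (herm_zero_left _)
  have h1 := hζ w
  rw [weyl_sq hF hp hl hl0, mt_one, one_mulVec, hwa, hwb, pw, hwa, hwb] at h1
  simp only [zero_smul, sub_zero, add_zero] at h1
  have hζ1 : ζ = 1 := by
    have : (ζ - 1) • w = 0 := by rw [sub_smul, one_smul, ← h1, sub_self]
    rcases smul_eq_zero.1 this with h | h
    · exact sub_eq_zero.1 h
    · exact absurd h hw0
  have h3 := hζ a
  rw [weyl_sq hF hp hl hl0, mt_one, one_mulVec, hζ1, one_smul, pw, hp.a0, hp.ab] at h3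
  simp only [zero_smul, sub_zero, add_zero, one_smul, sub_self, zero_sub] at h3
  have : (2 : F) • a = 0 := by rw [two_smul]; nth_rewrite 1 [← h3]; simp
  rcases smul_eq_zero.1 this with h | h
  · exact h2 h
  · exact hp.a_ne h

end

end Cfsg.Agent.Lib.Helper99.BalPSU
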